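import Mathlib

set_option autoImplicit false

namespace Cfsg.Agent.H49.AW

open MulAction
open scoped Pointwise

theorem block_stab {G : Type*} [Group G] {Ω : Type*} [Fintype Ω] [DecidableEq Ω] [MulAction G Ω]
    (b : G) (h3 : (MulAction.toPermHom G Ω b).support.card = 3)
    (B : Set Ω) (hB : IsBlock G B) (hB2 : ¬ B.Subsingleton) : b • B = B := by
  classical
  by_contra hne
  have hdis : Disjoint (b • B) B := by
    rcases isBlock_iff_smul_eq_or_disjoint.mp hB b with h | h
    · exact absurd h hne
    · exact h
  rw [Set.not_subsingleton_iff] at hB2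
  obtain ⟨p, hp, q, hq, hpq⟩ := hB2
  have m1 : ∀ r ∈ B, b • r ≠ r := by
    intro r hr h
    have h2 : b • r ∈ b • B := Set.smul_mem_smul_set hr
    rw [h] at h2
    exact Set.disjoint_left.mp hdis h2 hr
  have m2 : ∀ r ∈ B, b • (b • r) ≠ b • r := by
    intro r hr h
    exact m1 r hr (smul_left_cancel b h)
  have d : ∀ r ∈ B, ∀ s ∈ B, b • r ≠ s := by
    intro r hr s hs h
    have h2 : b • r ∈ b • B := Set.smul_mem_smul_set hr
    rw [h] at h2
    exact Set.disjoint_left.mp hdis h2 hs
  have hsub : ({p, q, b • p, b • q} : Finset Ω) ⊆ (MulAction.toPermHom G Ω b).support := by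
    intro r hr
    rw [Equiv.Perm.mem_support, MulAction.toPermHom_apply, MulAction.toPerm_apply]
    simp only [Finset.mem_insert, Finset.mem_singleton] at hr
    rcases hr with rfl | rfl | rfl | rfl
    · exact m1 _ hp
    · exact m1 _ hq
    · exact m2 _ hp
    · exact m2 _ hq
  have hc := Finset.card_le_card hsub
  rw [h3] at hc
  have h4 : ({p, q, b • p, b • q} : Finset Ω).card = 4 := by
    rw [Finset.card_insert_of_notMem, Finset.card_insert_of_notMem, Finset.card_insert_of_notMem,
      Finset.card_singleton]
    · simp only [Finset.mem_singleton]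
      intro h
      exact hpq (smul_left_cancel b h)
    · simp only [Finset.mem_insert, Finset.mem_singleton]
      rintro (h | h)
      · exact d p hp q hq h.symm
      · exact d q hq q hq h.symm
    · simp only [Finset.mem_insert, Finset.mem_singleton]
      rintro (h | h | h)
      · exact hpq h
      · exact d p hp p hp h.symm
      · exact d q hq p hp h.symm
  omega

theorem card_le_four {G : Type*} [Group G] (hsol : Group.IsSolvable G) {Ω : Type*} [Fintype Ω] [DecidableEq Ω]
    [MulAction G Ω] [IsPretransitive G Ω] (b : G)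
    (hb : ∀ K : Subgroup G, K.Normal → b ∈ K → K = ⊤)
    (h3 : (MulAction.toPermHom G Ω b).support.card = 3) : Fintype.card Ω ≤ 4 := by
  classical
  set H : Subgroup (Equiv.Perm Ω) := (MulAction.toPermHom G Ω).range with hH
  have hsm : ∀ (g : G) (p : Ω), (⟨MulAction.toPermHom G Ω g, ⟨g, rfl⟩⟩ : H) • p = g • p := by
    intro g p
    rfl
  have hprim : IsPreprimitive H Ω := by
    haveI : IsPretransitive H Ω := by
      refine ⟨fun p q => ?_⟩
      obtain ⟨g, hg⟩ := MulAction.exists_smul_eq G p q
      exact ⟨⟨MulAction.toPermHom G Ω g, ⟨g, rfl⟩⟩, hg⟩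
    refine ⟨fun {B} hBH => ?_⟩
    have hB : IsBlock G B := by
      rw [isBlock_iff_smul_eq_or_disjoint]
      intro g
      exact isBlock_iff_smul_eq_or_disjoint.mp hBH ⟨MulAction.toPermHom G Ω g, ⟨g, rfl⟩⟩
    by_cases hB2 : B.Subsingleton
    · exact Or.inl hB2
    right
    have hcore : b ∈ (stabilizer G B).normalCore := by
      intro g
      rw [mem_stabilizer_iff]
      have h1 : IsBlock G (g⁻¹ • B) := hB.translate g⁻¹
      have h2 : ¬ (g⁻¹ • B).Subsingleton := by
        intro h
        apply hB2
        intro p hp q hq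
        have := h (Set.smul_mem_smul_set (a := g⁻¹) hp) (Set.smul_mem_smul_set (a := g⁻¹) hq)
        exact smul_left_cancel _ this
      have h3' := block_stab b h3 _ h1 h2
      rw [mul_smul, mul_smul, h3', smul_inv_smul]
    have htop := hb _ (Subgroup.normalCore_normal _) hcore
    have hst : ∀ g : G, g • B = B := by
      intro g
      have : g ∈ (stabilizer G B).normalCore := by rw [htop]; trivial
      exact mem_stabilizer_iff.mp (Subgroup.normalCore_le _ this)
    rw [Set.not_subsingleton_iff] at hB2
    obtain ⟨p, hp, -⟩ := hB2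
    rw [Set.eq_univ_iff_forall]
    intro q
    obtain ⟨g, hg⟩ := MulAction.exists_smul_eq G p q
    rw [← hst g, ← hg]
    exact Set.smul_mem_smul_set hp
  have halt : alternatingGroup Ω ≤ H :=
    Equiv.Perm.alternatingGroup_le_of_isPreprimitive_of_isThreeCycle_mem hprim
      (card_support_eq_three_iff.mp h3) ⟨b, rfl⟩
  by_contra hcon
  push Not at hcon
  haveI := hsol
  haveI hHsol : Group.IsSolvable H := by
    exact Group.isSolvable_of_surjective (MulAction.toPermHom G Ω).rangeRestrict_surjective
  haveI hAsol : Group.IsSolvable (alternatingGroup Ω) :=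
    Group.isSolvable_of_isSolvable_injective (Subgroup.inclusion_injective halt)
  have hP : Group.IsSolvable (Equiv.Perm Ω) := by
    refine Group.isSolvable_of_ker_le_range (alternatingGroup Ω).subtype (Equiv.Perm.sign (α := Ω)) ?_
    rw [Subgroup.range_subtype]
    exact le_of_eq rfl
  exact Equiv.Perm.not_isSolvable Ω (by
    rw [Cardinal.mk_fintype]
    exact_mod_cast hcon) hP

end Cfsg.Agent.H49.AW
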