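import Cfsg.Agent.Star.AWDef
import Cfsg.Agent.H49.AW.Perm3

/-! S4415, PIECE 3: `alpha_dim` (with `weights` as a hypothesis). -/

set_option autoImplicit false

namespace Cfsg.Agent.H49.AW

open Cfsg.Agent.Star.AW
open scoped Pointwise

universe u v
variable {G : Type u} [Group G] [Finite G] {W : Type v} [AddCommGroup W] [Module (ZMod 3) W]
  [Finite W] {σ : Representation (ZMod 3) G W} {N : Subgroup G} {b x y : G}

/-- the statement of `weights` -/
def Wts (σ : Representation (ZMod 3) G W) (b x y : G) : Prop :=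
  ∃ v : W, v ≠ 0 ∧ σ x v = v ∧ σ y v = -v ∧
    (∀ w, σ x w = w → σ y w = -w → ∃ c : ZMod 3, w = c • v) ∧
    (∀ w, σ x w = w → σ y w = w → σ b w = w)

omit [Finite G] [Finite W] in
theorem normal_top (D : Dat σ N b x y) (K : Subgroup G) (hK : K.Normal) (hb : b ∈ K) : K = ⊤ := by
  have h1 : Subgroup.zpowers b ≤ K := by
    rw [Subgroup.zpowers_le]; exact hb
  have h2 : N ≤ K := by
    rw [← D.comm]
    exact (Subgroup.commutator_mono le_rfl h1).trans (Subgroup.commutator_le_right _ _)
  rw [eq_top_iff, ← D.gen]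
  exact sup_le h2 h1

omit [Finite G] [Finite W] in
/-- a four-group in `A` permuted by `b` -/
theorem exists_qb (D : Dat σ N b x y) (A : Subgroup G) (hA : A.Normal)
    (hel : ∀ a ∈ A, a * a = 1) (hnc : ¬ A ≤ Subgroup.center G) :
    ∃ x' ∈ A, ∃ y' ∈ A, QB σ b x' y' := by
  have hinv : ∀ a ∈ A, a⁻¹ = a := fun a ha => inv_eq_of_mul_eq_one_left (hel a ha)
  have hcomm : ∀ a ∈ A, ∀ c ∈ A, a * c = c * a := by
    intro a ha c hc
    have h := hel (a * c) (A.mul_mem ha hc)
    have h2 : (a * c)⁻¹ = a * c := inv_eq_of_mul_eq_one_left h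
    rw [mul_inv_rev, hinv a ha, hinv c hc] at h2
    exact h2.symm
  have h1 : ∃ a ∈ A, b * a * b⁻¹ ≠ a := by
    by_contra hcon
    push Not at hcon
    apply hnc
    have hb : b ∈ Subgroup.centralizer (A : Set G) := by
      rw [Subgroup.mem_centralizer_iff]
      intro a ha
      have := hcon a ha
      rw [mul_inv_eq_iff_eq_mul] at this
      exact this.symm
    haveI := hA
    have htop := normal_top D (Subgroup.centralizer (A : Set G)) inferInstance hb
    intro a ha
    rw [Subgroup.mem_center_iff]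
    intro g
    have hg : g ∈ Subgroup.centralizer (A : Set G) := by rw [htop]; trivial
    exact (Subgroup.mem_centralizer_iff.mp hg a ha).symm
  obtain ⟨a, ha, hab⟩ := h1
  have hb1 : ∀ c ∈ A, b * c * b⁻¹ ∈ A := fun c hc => hA.conj_mem c hc b
  set a1 := b * a * b⁻¹ with ha1
  set a2 := b * a1 * b⁻¹ with ha2
  have hA1 : a1 ∈ A := hb1 a ha
  have hA2 : a2 ∈ A := hb1 a1 hA1
  have ha3 : b * a2 * b⁻¹ = a := by
    have hb3 := D.b3
    have : b * a2 * b⁻¹ = b ^ 3 * a * (b ^ 3)⁻¹ := by
      rw [ha2, ha1]
      simp only [pow_succ, pow_zero, one_mul, mul_inv_rev, mul_assoc]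
    rw [this, hb3]; simp
  refine ⟨a * a1, A.mul_mem ha hA1, a1 * a2, A.mul_mem hA1 hA2, D.faith, D.b3, D.rk, ?_, ?_, ?_, ?_, ?_⟩
  · intro h
    apply hab
    have := eq_inv_of_mul_eq_one_right h
    rw [this, hinv a ha]
  · exact hel _ (A.mul_mem ha hA1)
  · exact hcomm _ (A.mul_mem ha hA1) _ (A.mul_mem hA1 hA2)
  · have : b * (a * a1) * b⁻¹ = (b * a * b⁻¹) * (b * a1 * b⁻¹) := by group
    rw [this]
  · have h1 : b * (a1 * a2) * b⁻¹ = (b * a1 * b⁻¹) * (b * a2 * b⁻¹) := by group
    rw [h1, ha3, ← ha2]
    have h2 : a * a1 * (a1 * a2) = a * (a1 * a1) * a2 := by group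
    rw [h2, hel a1 hA1, mul_one]
    exact hcomm _ hA2 _ ha

theorem alpha_dim' (D : Dat σ N b x y) (hW : ∀ x' y' : G, QB σ b x' y' → Wts σ b x' y')
    (A : Subgroup G) [hA : A.Normal]
    (hel : ∀ a ∈ A, a * a = 1) (hnc : ¬ A ≤ Subgroup.center G) :
    Module.finrank (ZMod 3) W ≤ 4 := by
  classical
  obtain ⟨x', hx', y', hy', hQ⟩ := exists_qb D A hA hel hnc
  obtain ⟨v, hv0, hxv, hyv, huniq, hfix⟩ := hW x' y' hQ
  have hcomm : ∀ a ∈ A, ∀ c ∈ A, a * c = c * a := by
    have hinv : ∀ a ∈ A, a⁻¹ = a := fun a ha => inv_eq_of_mul_eq_one_left (hel a ha)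
    intro a ha c hc
    have h := hel (a * c) (A.mul_mem ha hc)
    have h2 : (a * c)⁻¹ = a * c := inv_eq_of_mul_eq_one_left h
    rw [mul_inv_rev, hinv a ha, hinv c hc] at h2
    exact h2.symm
  have hmul : ∀ (g h : G) (w : W), σ (g * h) w = σ g (σ h w) := by
    intro g h w; rw [map_mul]; rfl
  have hone : ∀ w : W, σ (1 : G) w = w := by intro w; rw [map_one]; rfl
  have htwo : ∀ w : W, w = -w → w = 0 := by
    intro w h
    have h3 : (3 : ℤ) • w = 0 := by
      have : ((3 : ZMod 3)) • w = (3 : ℤ) • w := by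
        rw [← Int.cast_smul_eq_zsmul (ZMod 3)]; norm_cast
      rw [← this, show (3 : ZMod 3) = 0 from rfl, zero_smul]
    have h2 : w + w = 0 := by nth_rewrite 1 [h]; simp
    have h4 : w + w + w = 0 := by
      rw [← h3]; abel
    rw [h2, zero_add] at h4
    exact h4
  -- elements of A act on v by signs
  have hsign : ∀ a ∈ A, σ a v = v ∨ σ a v = -v := by
    intro a ha
    obtain ⟨c, hc⟩ := huniq (σ a v) (by rw [← hmul, hcomm x' hx' a ha, hmul, hxv])
      (by rw [← hmul, hcomm y' hy' a ha, hmul, hyv, map_neg])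
    have hc2 : ∀ c : ZMod 3, c = 0 ∨ c = 1 ∨ c = -1 := by decide
    rcases hc2 c with h | h | h
    · exfalso
      rw [h, zero_smul] at hc
      have : σ (a * a) v = 0 := by rw [hmul, hc, map_zero]
      rw [hel a ha, hone] at this
      exact hv0 this
    · left; rw [hc, h, one_smul]
    · right; rw [hc, h, neg_smul, one_smul]
  -- the stabilizer of the line
  let H : Subgroup G :=
    { carrier := {g | σ g v = v ∨ σ g v = -v}
      mul_mem' := by
        rintro g h (hg | hg) (hh | hh)
        · left; rw [hmul, hh, hg]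
        · right; rw [hmul, hh, map_neg, hg]
        · right; rw [hmul, hh, hg]
        · left; rw [hmul, hh, map_neg, hg, neg_neg]
      one_mem' := Or.inl (hone v)
      inv_mem' := by
        rintro g (hg | hg)
        · left
          rw [← hg, ← hmul, inv_mul_cancel, hone, hg]
        · right
          have : σ g⁻¹ (σ g v) = v := by rw [← hmul, inv_mul_cancel, hone]
          rw [hg, map_neg] at this
          rw [← neg_eq_iff_eq_neg]; exact this }
  have hHmem : ∀ g : G, g ∈ H ↔ (σ g v = v ∨ σ g v = -v) := fun g => Iff.rfl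
  have hline : ∀ (g : G) (c : ZMod 3), σ g v = c • v → g ∈ H := by
    intro g c hc
    have hc2 : ∀ c : ZMod 3, c = 0 ∨ c = 1 ∨ c = -1 := by decide
    rcases hc2 c with h | h | h
    · exfalso
      rw [h, zero_smul] at hc
      have : σ (g⁻¹ * g) v = 0 := by rw [hmul, hc, map_zero]
      rw [inv_mul_cancel, hone] at this
      exact hv0 this
    · left; rw [hc, h, one_smul]
    · right; rw [hc, h, neg_smul, one_smul]
  -- signs of x', y' on σ g v
  have hsg : ∀ a ∈ A, ∀ g : G, σ a (σ g v) = σ g v ∨ σ a (σ g v) = -σ g v := by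
    intro a ha g
    have h1 : σ a (σ g v) = σ g (σ (g⁻¹ * a * g) v) := by
      rw [← hmul, ← hmul]; congr 2; group
    have h2 : g⁻¹ * a * g ∈ A := by
      have := hA.conj_mem a ha g⁻¹
      simpa using this
    rcases hsign _ h2 with h | h
    · left; rw [h1, h]
    · right; rw [h1, h, map_neg]
  -- relations with b
  have hbx : ∀ w, σ y' (σ b w) = σ b (σ x' w) := by
    intro w
    rw [← hmul, ← hmul]; congr 2
    rw [← hQ.bx]; group
  have hby : ∀ w, σ x' (σ y' (σ b w)) = σ b (σ y' w) := by
    intro w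
    rw [← hmul, ← hmul, ← hmul]; congr 2
    rw [← hQ.bby]; group
  have hbinj : Function.Injective (σ b) := by
    intro w1 w2 h
    have : σ b⁻¹ (σ b w1) = σ b⁻¹ (σ b w2) := by rw [h]
    rwa [← hmul, ← hmul, inv_mul_cancel, hone, hone] at this
  -- b v and b² v
  have hbv_y : σ y' (σ b v) = σ b v := by rw [hbx, hxv]
  have hbv_x : σ x' (σ b v) = -σ b v := by
    have := hby v
    rw [hbv_y, hyv, map_neg] at this
    exact this
  have hbbv_y : σ y' (σ b (σ b v)) = -σ b (σ b v) := by rw [hbx, hbv_x, map_neg]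
  have hbbv_x : σ x' (σ b (σ b v)) = -σ b (σ b v) := by
    have := hby (σ b v)
    rw [hbbv_y, hbv_y, map_neg, neg_eq_iff_eq_neg] at this
    exact this
  have hbv0 : σ b v ≠ 0 := by
    intro h; apply hv0; apply hbinj; rw [h, map_zero]
  have hbH : b ∉ H := by
    rintro (h | h)
    · rw [h] at hbv_x
      rw [hxv] at hbv_x
      exact hv0 (htwo _ hbv_x)
    · rw [h, map_neg, hxv, neg_neg] at hbv_x
      exact hv0 (htwo _ hbv_x.symm)
  have hb3 : b * b * b = 1 := by
    have := D.b3
    rw [pow_succ, pow_two] at this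
    exact this
  have hbbH : b * b ∉ H := by
    intro h
    apply hbH
    have h2 := H.mul_mem h h
    have h3 : b * b * (b * b) = b := by
      calc b * b * (b * b) = b * b * b * b := by group
        _ = b := by rw [hb3, one_mul]
    rwa [h3] at h2
  haveI : Fintype (G ⧸ H) := Fintype.ofFinite _
  -- support of b
  have hsupp : (MulAction.toPermHom G (G ⧸ H) b).support =
      ({((1 : G) : G ⧸ H), ((b : G) : G ⧸ H), ((b * b : G) : G ⧸ H)} : Finset (G ⧸ H)) := by
    ext q
    rw [Equiv.Perm.mem_support, MulAction.toPermHom_apply, MulAction.toPerm_apply]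
    simp only [Finset.mem_insert, Finset.mem_singleton]
    obtain ⟨g, rfl⟩ := QuotientGroup.mk_surjective q
    constructor
    · intro hne
      have hne' : g⁻¹ * (b * g) ∉ H := by
        intro h
        apply hne
        change ((b * g : G) : G ⧸ H) = (g : G ⧸ H)
        exact ((QuotientGroup.eq).mpr h).symm
      rcases hsg x' hx' g with h1 | h1 <;> rcases hsg y' hy' g with h2 | h2
      · exfalso
        apply hne'
        left
        have h3 := hfix _ h1 h2
        rw [hmul, hmul, h3, ← hmul, inv_mul_cancel, hone]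
      · left
        obtain ⟨c, hc⟩ := huniq _ h1 h2
        have := hline g c hc
        rw [QuotientGroup.eq, mul_one]
        exact H.inv_mem this
      · -- x' = -1, y' = 1 : g v ∈ span (b v)
        right; left
        have h3 : σ x' (σ (b⁻¹ * g) v) = σ (b⁻¹ * g) v := by
          apply hbinj
          rw [← hbx]
          rw [← hmul b (b⁻¹ * g), mul_inv_cancel_left, h2]
        have h4 : σ y' (σ (b⁻¹ * g) v) = - σ (b⁻¹ * g) v := by
          apply hbinj
          rw [← hby, map_neg]
          rw [← hmul b (b⁻¹ * g), mul_inv_cancel_left, h2, h1]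
        obtain ⟨c, hc⟩ := huniq _ h3 h4
        have := hline _ c hc
        rw [QuotientGroup.eq]
        have h5 := H.inv_mem this
        rwa [mul_inv_rev, inv_inv] at h5
      · right; right
        have h3 : σ x' (σ (b⁻¹ * g) v) = - σ (b⁻¹ * g) v := by
          apply hbinj
          rw [← hbx, map_neg]
          rw [← hmul b (b⁻¹ * g), mul_inv_cancel_left, h2]
        have h4 : σ y' (σ (b⁻¹ * g) v) = σ (b⁻¹ * g) v := by
          apply hbinj
          rw [← hby]
          rw [← hmul b (b⁻¹ * g), mul_inv_cancel_left, h2, map_neg, h1, neg_neg]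
        have h3' : σ x' (σ (b⁻¹ * (b⁻¹ * g)) v) = σ (b⁻¹ * (b⁻¹ * g)) v := by
          apply hbinj
          rw [← hbx]
          rw [← hmul b (b⁻¹ * (b⁻¹ * g)), mul_inv_cancel_left, h4]
        have h4' : σ y' (σ (b⁻¹ * (b⁻¹ * g)) v) = - σ (b⁻¹ * (b⁻¹ * g)) v := by
          apply hbinj
          rw [← hby, map_neg]
          rw [← hmul b (b⁻¹ * (b⁻¹ * g)), mul_inv_cancel_left, h4, h3]
        obtain ⟨c, hc⟩ := huniq _ h3' h4'
        have := hline _ c hc
        rw [QuotientGroup.eq]
        have h5 := H.inv_mem this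
        rw [mul_inv_rev, mul_inv_rev, inv_inv] at h5
        rwa [mul_assoc] at h5
    · intro h hfx
      have hfx' : g⁻¹ * (b * g) ∈ H := by
        have : ((g : G) : G ⧸ H) = ((b * g : G) : G ⧸ H) := hfx.symm
        exact QuotientGroup.eq.mp this
      have key : ∀ h₀ : G, g⁻¹ * h₀ ∈ H → h₀⁻¹ * (b * h₀) ∈ H := by
        intro h₀ hh
        have : h₀⁻¹ * (b * h₀) = (g⁻¹ * h₀)⁻¹ * (g⁻¹ * (b * g)) * (g⁻¹ * h₀) := by group
        rw [this]
        exact H.mul_mem (H.mul_mem (H.inv_mem hh) hfx') hh
      rcases h with h | h | h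
      · have := key 1 (QuotientGroup.eq.mp h)
        apply hbH
        simpa using this
      · have := key b (QuotientGroup.eq.mp h)
        apply hbH
        simpa using this
      · have := key (b * b) (QuotientGroup.eq.mp h)
        apply hbH
        have h2 : (b * b)⁻¹ * (b * (b * b)) = b := by group
        rwa [h2] at this
  have h3 : (MulAction.toPermHom G (G ⧸ H) b).support.card = 3 := by
    rw [hsupp, Finset.card_insert_of_notMem, Finset.card_insert_of_notMem, Finset.card_singleton]
    · simp only [Finset.mem_singleton]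
      intro h
      apply hbH
      have := QuotientGroup.eq.mp h
      rwa [inv_mul_cancel_left] at this
    · simp only [Finset.mem_insert, Finset.mem_singleton]
      rintro (h | h)
      · apply hbH
        have := QuotientGroup.eq.mp h
        simpa using this
      · apply hbbH
        have := QuotientGroup.eq.mp h
        simpa using this
  have hcard := card_le_four (G := G) D.sol (Ω := G ⧸ H) b (fun K hK hb => normal_top D K hK hb) h3
  -- the span of the conjugates
  set f : G ⧸ H → W := fun q => σ q.out v with hf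
  have hfr : (Set.range f).finrank (ZMod 3) ≤ Fintype.card (G ⧸ H) := finrank_range_le_card f
  have hinv : ∀ g : G, ∀ w ∈ Submodule.span (ZMod 3) (Set.range f),
      σ g w ∈ Submodule.span (ZMod 3) (Set.range f) := by
    intro g w hw
    induction hw using Submodule.span_induction with
    | mem w hw =>
      obtain ⟨q, rfl⟩ := hw
      have h1 : ((g * q.out : G) : G ⧸ H).out⁻¹ * (g * q.out) ∈ H := by
        rw [← QuotientGroup.eq]
        exact QuotientGroup.out_eq' _
      have h2 : σ g (f q) = σ (((g * q.out : G) : G ⧸ H).out)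
          (σ (((g * q.out : G) : G ⧸ H).out⁻¹ * (g * q.out)) v) := by
        rw [hf]
        change σ g (σ _ v) = _
        rw [← hmul, ← hmul, mul_inv_cancel_left]
      rw [h2]
      rcases h1 with h1 | h1
      · rw [h1]
        exact Submodule.subset_span ⟨_, rfl⟩
      · rw [h1, map_neg]
        exact Submodule.neg_mem _ (Submodule.subset_span ⟨_, rfl⟩)
    | zero => rw [map_zero]; exact Submodule.zero_mem _
    | add w1 w2 _ _ h1 h2 => rw [map_add]; exact Submodule.add_mem _ h1 h2
    | smul c w _ h1 => rw [map_smul]; exact Submodule.smul_mem _ _ h1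
  have htop : Submodule.span (ZMod 3) (Set.range f) = ⊤ := by
    rcases D.irr (Submodule.span (ZMod 3) (Set.range f)) hinv with h | h
    · exfalso
      have h1 : f ((1 : G) : G ⧸ H) ∈ Submodule.span (ZMod 3) (Set.range f) :=
        Submodule.subset_span ⟨_, rfl⟩
      rw [h, Submodule.mem_bot] at h1
      apply hv0
      have h2 : σ (((1 : G) : G ⧸ H).out)⁻¹ (f ((1 : G) : G ⧸ H)) = v := by
        rw [hf]
        change σ _ (σ _ v) = v
        rw [← hmul, inv_mul_cancel, hone]
      rw [h1, map_zero] at h2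
      exact h2.symm
    · exact h
  rw [Set.finrank, htop, finrank_top] at hfr
  exact hfr.trans hcard

end Cfsg.Agent.H49.AW
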